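import Cfsg.Agent.H818.StrP.Gen
import Cfsg.Agent.Lib.SolvableNormalP

/-!
# Solvable groups with a strongly `p`-embedded subgroup have `p`-rank one (helper63, for S3846)

* `noSP_of_solvable` : a solvable group with an elementary abelian subgroup of order `p ^ 2` has no strongly
  `p`-embedded subgroup;
* `not_solvable` : three elements of order `p` generating a non-solvable subgroup, from a strongly `p`-embedded subgroup.
-/

set_option autoImplicit false

namespace Cfsg.Agent.H63.SYTi

open Cfsg Subgroup Cfsg.Agent.H818.StrP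

variable {X : Type*} [Group X] [Finite X] {p : ℕ} [hp : Fact p.Prime]

/-- a strongly `p`-embedded subgroup contains a conjugate of every elementary abelian group -/
theorem exists_elem {M : Subgroup X} (h : IsStronglyPEmbedded p M)
    (hnc : ∃ A : Subgroup X, IsElementaryAbelian p A ∧ p ^ 2 ≤ Nat.card ↥A) :
    ∃ A : Subgroup X, A ≤ M ∧ IsElementaryAbelian p A ∧ p ^ 2 ≤ Nat.card ↥A := by
  obtain ⟨B, hBel, hBc⟩ := hnc
  have hBp : IsPGroup p ↥B := fun b => ⟨1, by
    rw [pow_one]
    exact Subtype.ext (hBel.2 b b.2)⟩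
  obtain ⟨g, hg⟩ := H818.StrP.exists_conj_mem h hBp
  refine ⟨B.map (MulAut.conj g).toMonoidHom, hg, ?_, ?_⟩
  · refine ⟨⟨⟨?_⟩⟩, ?_⟩
    · rintro ⟨_, a, ha, rfl⟩ ⟨_, b, hb, rfl⟩
      have h1 := hBel.1.is_comm.comm (⟨a, ha⟩ : ↥B) ⟨b, hb⟩
      have h2 : a * b = b * a := congrArg Subtype.val h1
      refine Subtype.ext ?_
      change (MulAut.conj g) a * (MulAut.conj g) b = (MulAut.conj g) b * (MulAut.conj g) a
      rw [← map_mul, h2, map_mul]
    · rintro _ ⟨a, ha, rfl⟩
      have h1 := hBel.2 a ha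
      change ((MulAut.conj g) a) ^ p = 1
      rw [← map_pow, h1, map_one]
  · rw [Subgroup.card_map_of_injective (MulAut.conj g).injective]
    exact hBc

/-- **Solvable groups with an elementary abelian subgroup of order `p ^ 2`: no strongly `p`-embedded subgroup.** -/
theorem noSP_of_solvable (hs : Group.IsSolvable X)
    (hnc : ∃ A : Subgroup X, IsElementaryAbelian p A ∧ p ^ 2 ≤ Nat.card ↥A) : NoSP p X := by
  intro M hM
  -- every normal `p'`-subgroup lies in every strongly `p`-embedded subgroup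
  have hle : ∀ M : Subgroup X, IsStronglyPEmbedded p M → ∀ V : Subgroup X, V.Normal →
      ¬ p ∣ Nat.card V → V ≤ M := by
    intro M hM V hV hVp
    obtain ⟨A, hAM, hA, hA2⟩ := exists_elem hM hnc
    refine coprime_le hM hA hA2 hAM hVp ?_
    rw [Subgroup.normalizer_eq_top]
    exact le_top
  -- a maximal one
  obtain ⟨V, ⟨hVn, hVp⟩, hVmax⟩ : ∃ V : Subgroup X, (V.Normal ∧ ¬ p ∣ Nat.card V) ∧
      ∀ W : Subgroup X, (W.Normal ∧ ¬ p ∣ Nat.card W) → V ≤ W → W = V := by
    have hfin : (Set.univ : Set (Subgroup X)).Finite := Set.toFinite _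
    obtain ⟨V, hV, hmax⟩ := (hfin.subset (Set.subset_univ
      {W : Subgroup X | W.Normal ∧ ¬ p ∣ Nat.card W})).exists_maximal ⟨⊥, inferInstance, by
        rw [Subgroup.card_bot]
        exact hp.out.one_lt.not_ge ∘ Nat.le_of_dvd Nat.one_pos⟩
    exact ⟨V, hV, fun W hW hVW => le_antisymm (hmax hW hVW) hVW⟩
  have hsV : Group.IsSolvable (X ⧸ V) :=
    Group.isSolvable_of_surjective (QuotientGroup.mk'_surjective V)
  have hpX : p ∣ Nat.card X := (EvenType.StrongP.dvd_card hM).trans (Subgroup.card_subgroup_dvd_card M)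
  have hnt : Nontrivial (X ⧸ V) := by
    rw [← not_subsingleton_iff_nontrivial, QuotientGroup.subsingleton_iff]
    rintro rfl
    exact hVp (by rwa [Subgroup.card_top])
  obtain ⟨q, N, hq, hNn, hNq, -, hN1⟩ := Cfsg.Agent.Lib.SolvableNormalP.exists_normal_pSubgroup (X ⧸ V)
  set L : Subgroup X := N.comap (QuotientGroup.mk' V) with hL
  have hVL : V ≤ L := by
    intro x hx
    change (QuotientGroup.mk' V) x ∈ N
    have : (QuotientGroup.mk' V) x = 1 := (QuotientGroup.eq_one_iff x).2 hx
    rw [this]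
    exact one_mem _
  have hLn : L.Normal := hNn.comap _
  have hcardL : Nat.card L = Nat.card V * Nat.card N := by
    have h1 : L.index = N.index :=
      Subgroup.index_comap_of_surjective N (QuotientGroup.mk'_surjective V)
    have h2 : Nat.card L * L.index = Nat.card X := Subgroup.card_mul_index L
    have h3 : Nat.card V * V.index = Nat.card X := Subgroup.card_mul_index V
    have h4 : V.index = Nat.card (X ⧸ V) := rfl
    have h5 : Nat.card N * N.index = Nat.card (X ⧸ V) := Subgroup.card_mul_index N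
    have h6 : 0 < N.index := Nat.pos_of_ne_zero Subgroup.index_ne_zero_of_finite
    apply Nat.eq_of_mul_eq_mul_right h6
    rw [← h1, h2, ← h3, h4, ← h5, h1]
    ring
  -- `q = p`
  have hqp : q = p := by
    by_contra hne
    have : Fact q.Prime := ⟨hq⟩
    obtain ⟨n, hn⟩ := (IsPGroup.iff_card (p := q)).1 hNq
    have hpL : ¬ p ∣ Nat.card L := by
      rw [hcardL]
      intro hdvd
      rcases hp.out.dvd_mul.1 hdvd with h | h
      · exact hVp h
      · rw [hn] at h
        exact hne ((Nat.prime_dvd_prime_iff_eq hp.out hq).1 (hp.out.dvd_of_dvd_pow h)).symm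
    have h1 := hVmax L ⟨hLn, hpL⟩ hVL
    rw [h1] at hcardL
    have h2 : Nat.card N = 1 := by
      have h3 : 0 < Nat.card V := Nat.card_pos
      exact Nat.eq_of_mul_eq_mul_left h3 (by rw [← hcardL, mul_one])
    exact hN1 (Subgroup.card_eq_one.1 h2)
  subst hqp
  have := hLn
  -- Frattini argument with a Sylow `q`-subgroup of `L`
  obtain ⟨n, hn⟩ := (IsPGroup.iff_card (p := q)).1 hNq
  obtain ⟨P⟩ : Nonempty (Sylow q L) := inferInstance
  have hPcard : q ^ n ∣ Nat.card (P : Subgroup L) :=
    P.pow_dvd_card_of_pow_dvd_card (by rw [hcardL, hn]; exact dvd_mul_left _ _)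
  set Q : Subgroup X := (P : Subgroup L).map L.subtype with hQ
  have hQp : IsPGroup q ↥Q := P.isPGroup'.map _
  have hQcard : q ^ n ∣ Nat.card Q := by
    rw [hQ, Subgroup.card_map_of_injective L.subtype_injective]
    exact hPcard
  have hQL : Q ≤ L := Subgroup.map_subtype_le _
  have hfr : normalizer (Q : Set X) ⊔ L = ⊤ := P.normalizer_sup_eq_top
  have hn0 : n ≠ 0 := by
    rintro rfl
    rw [pow_zero] at hn
    exact hN1 (Subgroup.card_eq_one.1 hn)
  have hQ1 : Q ≠ ⊥ := by
    intro h0
    rw [h0, Subgroup.card_bot] at hQcard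
    exact hn0 (Nat.eq_zero_of_not_pos fun h => by
      have := (dvd_pow_self q h.ne').trans hQcard
      exact hp.out.one_lt.ne' (Nat.dvd_one.1 this))
  obtain ⟨g, hg⟩ := H818.StrP.exists_conj_mem hM hQp
  -- conjugate `M`
  set M' : Subgroup X := M.map (MulAut.conj g⁻¹).toMonoidHom with hM'
  have hM'e : IsStronglyPEmbedded q M' := map_equiv (MulAut.conj g⁻¹) hM
  have hQM' : Q ≤ M' := by
    intro x hx
    refine ⟨MulAut.conj g x, hg ⟨x, hx, rfl⟩, ?_⟩
    change g⁻¹ * (g * x * g⁻¹) * g⁻¹⁻¹ = x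
    group
  have hVM' : V ≤ M' := hle M' hM'e V hVn hVp
  have hLM' : L ≤ M' := by
    have h1 : Nat.card L ∣ Nat.card ↥(M' ⊓ L) := by
      rw [hcardL, hn]
      refine Nat.Coprime.mul_dvd_of_dvd_of_dvd ?_ (card_dvd_of_le (le_inf hVM' hVL))
        (hQcard.trans (card_dvd_of_le (le_inf hQM' hQL)))
      exact hp.out.coprime_pow_of_not_dvd hVp
    have h2 : Nat.card L ≤ Nat.card ↥(M' ⊓ L) := Nat.le_of_dvd Nat.card_pos h1
    have h3 : M' ⊓ L = L := Subgroup.eq_of_le_of_card_ge inf_le_right h2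
    exact inf_eq_right.1 h3
  apply hM'e.2.1
  rw [eq_top_iff, ← hfr]
  exact sup_le (normalizer_le hM'e hQM' hQp hQ1) hLM'

/-- the subgroup generated by two commuting elements of order `p`, the second not a power of the first -/
theorem elem_closure {a b : X} (ha : orderOf a = p) (hb : orderOf b = p) (hab : a * b = b * a)
    (hne : b ∉ zpowers a) :
    IsElementaryAbelian p (closure ({a, b} : Set X)) ∧ p ^ 2 ≤ Nat.card (closure ({a, b} : Set X)) := by
  have hcomm : ∀ x ∈ ({a, b} : Set X), ∀ y ∈ ({a, b} : Set X), x * y = y * x := by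
    rintro x (rfl | rfl) y (rfl | rfl)
    · rfl
    · exact hab
    · exact hab.symm
    · rfl
  have hc : IsMulCommutative (closure ({a, b} : Set X)) := Subgroup.isMulCommutative_closure hcomm
  have hpow : ∀ x ∈ closure ({a, b} : Set X), x ^ p = 1 := by
    intro x hx
    induction hx using closure_induction with
    | mem x hx =>
      rcases hx with rfl | rfl
      · rw [← ha]; exact pow_orderOf_eq_one _
      · rw [← hb]; exact pow_orderOf_eq_one _
    | one => exact one_pow _
    | mul x y hx hy h1 h2 =>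
      have h3 : Commute x y := congrArg Subtype.val
        (hc.is_comm.comm (⟨x, hx⟩ : closure ({a, b} : Set X)) ⟨y, hy⟩)
      rw [h3.mul_pow, h1, h2, one_mul]
    | inv x hx h1 => rw [inv_pow, h1, inv_one]
  refine ⟨⟨hc, hpow⟩, ?_⟩
  have hpg : IsPGroup p (closure ({a, b} : Set X)) := fun x => ⟨1, by
    rw [pow_one]
    exact Subtype.ext (hpow x x.2)⟩
  obtain ⟨n, hn⟩ := (IsPGroup.iff_card (p := p)).1 hpg
  rw [hn]
  refine Nat.pow_le_pow_right hp.out.pos ?_
  by_contra hlt
  have h1 : Nat.card (closure ({a, b} : Set X)) ≤ Nat.card (zpowers a) := by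
    rw [hn, Nat.card_zpowers, ha]
    calc p ^ n ≤ p ^ 1 := Nat.pow_le_pow_right hp.out.pos (by omega)
      _ = p := pow_one p
  have h2 : zpowers a ≤ closure ({a, b} : Set X) := by
    rw [zpowers_le]
    exact subset_closure (Or.inl rfl)
  have h3 := Subgroup.eq_of_le_of_card_ge h2 h1
  apply hne
  rw [h3]
  exact subset_closure (Or.inr rfl)

/-- **Three elements of order `p` generating a non-solvable subgroup.** -/
theorem not_solvable {M : Subgroup X}
    (hM : ∀ g e : X, e ∈ M → orderOf e = p → g⁻¹ * e * g ∈ M → g ∈ M) {a b g : X} (haM : a ∈ M)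
    (ha : orderOf a = p) (hb : orderOf b = p) (hab : a * b = b * a) (hne : b ∉ zpowers a) (hg : g ∉ M)
    {L : Subgroup X} (haL : a ∈ L) (hbL : b ∈ L) (hcL : g * a * g⁻¹ ∈ L) : ¬ Group.IsSolvable L := by
  intro hsol
  have hcM : g * a * g⁻¹ ∉ M := by
    intro h
    apply hg
    have h1 := hM g⁻¹ a haM ha (by rwa [inv_inv])
    exact (inv_mem_iff).1 h1
  have hp1 : ∀ x : X, ∀ hx : x ∈ L, orderOf (⟨x, hx⟩ : L) = orderOf x := fun x hx => Subgroup.orderOf_mk x hx
  -- the strongly embedded subgroup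
  have hSE : IsStronglyPEmbedded p (M.subgroupOf L) := by
    refine of_normIn' ?_ ?_ ?_
    · have h0 : (⟨a, haL⟩ : L) ∈ M.subgroupOf L := mem_subgroupOf.2 haM
      have h1 : orderOf (⟨⟨a, haL⟩, h0⟩ : M.subgroupOf L) = p := by
        rw [Subgroup.orderOf_mk, Subgroup.orderOf_mk, ha]
      rw [← h1]
      exact orderOf_dvd_natCard _
    · intro h
      apply hcM
      have h1 : (⟨g * a * g⁻¹, hcL⟩ : L) ∈ M.subgroupOf L := by rw [h]; exact mem_top _
      exact h1
    · intro Q hQ hQM hQ1 n hn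
      have hQn : Nontrivial Q := (Subgroup.nontrivial_iff_ne_bot Q).2 hQ1
      obtain ⟨k, hk⟩ := IsPGroup.iff_card.1 hQ
      have h2 : 1 < Nat.card Q := Finite.one_lt_card
      have h3 : p ∣ Nat.card Q := by
        rw [hk] at h2 ⊢
        refine dvd_pow_self p ?_
        rintro rfl
        simp at h2
      obtain ⟨e, he⟩ := exists_prime_orderOf_dvd_card' p h3
      have he1 : orderOf ((e : L) : X) = p := by
        rw [Subgroup.orderOf_coe, Subgroup.orderOf_coe, he]
      have h4 : (n⁻¹ * (e : L) * n : L) ∈ Q := by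
        have := (mem_normalizer_iff''.1 hn (e : L)).1 e.2
        exact this
      exact hM (n : X) ((e : L) : X) (hQM e.2) he1 (hQM h4)
  refine noSP_of_solvable hsol ⟨closure ({⟨a, haL⟩, ⟨b, hbL⟩} : Set L), ?_⟩ _ hSE
  refine elem_closure ?_ ?_ ?_ ?_
  · rw [hp1, ha]
  · rw [hp1, hb]
  · exact Subtype.ext hab
  · intro h
    apply hne
    obtain ⟨k, hk⟩ := mem_zpowers_iff.1 h
    exact mem_zpowers_iff.2 ⟨k, by
      have := congrArg Subtype.val hk
      simpa using this⟩

end Cfsg.Agent.H63.SYTi
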